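import Cfsg.Agent.UnitMinDegree.Lower

/-!
The Landazuri-Seitz-Tiep-Zalesskii bounds for `SU_n(q)`.
-/

set_option autoImplicit false

namespace CfsgLib.UnitMinDegree

open Matrix

variable {K : Type*} [Field K] [Fintype K] [StarRing K] {n m q k : ℕ}

/-- `(q^{2m}-1)/(q+1)` for `n ≥ 2m ≥ 4`. -/
theorem degree_ge_even (hF : Fintype.card K = q ^ 2) (hstar : ∀ x : K, star x = x ^ q) (hn : n = 2 * m)
    (hm : 2 ≤ m) (ρ : Representation ℂ ↥(Cfsg.SU n K q) (Fin k → ℂ)) (hρ : ρ.IsIrreducible) (hk : 2 ≤ k) :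
    (q ^ (2 * m) - 1) / (q + 1) ≤ k := by
  obtain ⟨E, G, h, -⟩ := exists_frame hF hstar hn.ge
  obtain ⟨r, rfl⟩ : ∃ r, m = r + 2 := ⟨m - 2, by omega⟩
  have key := degree_ge hF hstar (by omega) (by omega) (by omega) h RealDetCond (fun Q hQ => hQ.1)
    (fun Q hQ => ?_) ρ hρ hk 1 ?_ ((q ^ (2 * (r + 2)) - 1) / (q + 1)) ?_
  · simpa using key
  · have hdet : Qᵀ.det ≠ 0 := by rw [Matrix.det_transpose]; exact hQ.1
    obtain ⟨g, hg⟩ := exists_SU_of_unitary hF hstar _ (leviMat_unitary h Qᵀ hdet) (by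
      rw [leviMat_det h, Matrix.det_nonsing_inv, Matrix.det_transpose, Ring.inverse_eq_inv', hQ.2,
        inv_mul_cancel₀ hQ.1])
    exact ⟨g, fun S => by rw [hg, siegelMat_levi h Qᵀ hdet]⟩
  · intro Φ sU ψ w _ _ _ _ ⟨y, hy⟩
    refine Module.finrank_pos_iff_exists_ne_zero.2 ⟨⟨y, (mem_weightSpace ψ _).2 hy.2⟩, fun e => hy.1 ?_⟩
    exact congrArg Subtype.val e
  · intro H hH hH0
    have := card_hOrbit_realDet hF hstar r H hH hH0
    rw [← pow_mul] at this
    refine Nat.div_le_of_le_mul ?_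
    omega

/-- `(q^{2m+1}-q)/(q+1)` for `n = 2m+1`. -/
theorem degree_ge_odd (hF : Fintype.card K = q ^ 2) (hstar : ∀ x : K, star x = x ^ q) (hn : n = 2 * m + 1)
    (hm : 1 ≤ m) (h32 : ¬ (n = 3 ∧ q = 2)) (ρ : Representation ℂ ↥(Cfsg.SU n K q) (Fin k → ℂ))
    (hρ : ρ.IsIrreducible) (hk : 2 ≤ k) : (q ^ (2 * m + 1) - q) / (q + 1) ≤ k := by
  classical
  obtain ⟨E, G, h, hu'⟩ := exists_frame (n := n) (m := m) hF hstar (by omega)
  obtain ⟨u, hu⟩ := hu' (by omega)
  have hinj : ∀ g g' : ↥(Cfsg.SU n K q), ((g : Matrix.SpecialLinearGroup (Fin n) K) : Matrix (Fin n) (Fin n) K) =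
      ((g' : Matrix.SpecialLinearGroup (Fin n) K) : Matrix (Fin n) (Fin n) K) → g = g' := fun g g' e =>
    Subtype.ext (Subtype.ext e)
  have key := degree_ge hF hstar (by omega) h32 hm h GLCond (fun Q hQ => hQ)
    (fun Q hQ => ?_) ρ hρ hk q ?_ ((q ^ (2 * m) - 1) / (q + 1)) ?_
  · have h1 : (q + 1) ∣ q ^ (2 * m) - 1 := by
      refine (show q + 1 ∣ q ^ 2 - 1 from ⟨q - 1, ?_⟩).trans ?_
      · rw [← Nat.sq_sub_sq]
      · rw [pow_mul]; exact Nat.sub_one_dvd_pow_sub_one _ _
    rw [← Nat.mul_div_assoc q h1, Nat.mul_sub, mul_one, ← pow_succ'] at key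
    exact key
  · have hQ0 : Q.det ≠ 0 := hQ
    have hdet : Qᵀ.det ≠ 0 := by rw [Matrix.det_transpose]; exact hQ0
    have hs0 : star Q.det ≠ 0 := star_ne_zero.2 hQ0
    set β : K := Q.det / star Q.det
    have hβ : star β * β = 1 := by
      simp only [β, star_div₀, star_star]
      field_simp
    obtain ⟨g, hg⟩ := exists_SU_of_unitary hF hstar (leviMat E G Qᵀ * midMat u β) (by
      rw [conjTranspose_mul, Matrix.mul_assoc, ← Matrix.mul_assoc (leviMat E G Qᵀ)ᴴ, leviMat_unitary h Qᵀ hdet,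
        Matrix.one_mul, hu.midMat_unitary β hβ]) (by
      rw [Matrix.det_mul, leviMat_det h, hu.midMat_det, Matrix.det_nonsing_inv, Matrix.det_transpose,
        Ring.inverse_eq_inv']
      simp only [β]
      field_simp)
    exact ⟨g, fun S => by
      rw [hg, ← Matrix.mul_assoc, siegelMat_levi h Qᵀ hdet, Matrix.mul_assoc, hu.siegelMat_mid,
        ← Matrix.mul_assoc]⟩
  · intro Φ sU ψ w hsU hψ hskew hw0 ⟨y, hy⟩
    set R : (Fin m × Fin m → K) → Matrix (Fin k) (Fin k) ℂ := fun v => Φ (sU v)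
    set Wt := weightSpace ψ R w with hWt
    have hnt : Nontrivial Wt := ⟨⟨⟨y, (mem_weightSpace ψ R).2 hy.2⟩, 0, fun e => hy.1 (congrArg Subtype.val e)⟩⟩
    obtain ⟨x, hx⟩ : ∃ x : Fin m → K, (fun p : Fin m × Fin m => x p.1 * star (x p.2)) ⬝ᵥ w ≠ 0 := by
      by_contra h0
      push Not at h0
      refine hw0 (funext fun p => ?_)
      obtain ⟨i, j⟩ := p
      have hs : ∀ (a : K) (l : Fin m), star (Pi.single l a : Fin m → K) = Pi.single l (star a) := fun a l => by
        funext r
        by_cases e : r = l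
        · subst e; simp
        · simp [e]
      have hsum : ∀ x : Fin m → K, ∑ a, ∑ b, x a * star (x b) * w (a, b) = 0 := fun x => by
        have := h0 x
        rwa [dotProduct, Fintype.sum_prod_type] at this
      have hbil : ∀ t : K, w (i, i) + t * star t * w (j, j) + star t * w (i, j) + t * w (j, i) = 0 := fun t => by
        have := hsum (Pi.single i 1 + Pi.single j t)
        simp [add_mul, mul_add, Finset.sum_add_distrib, Pi.single_apply, apply_ite (star : K → K), ite_mul,
          mul_ite] at this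
        linear_combination this
      have hdg : ∀ l, w (l, l) = 0 := fun l => by
        have := hsum (Pi.single l 1)
        simpa [Pi.single_apply, apply_ite (star : K → K), ite_mul, mul_ite] using this
      obtain ⟨t, ht, ht2⟩ := CfsgLib.Unitary.exists_norm_one_ne_inv hF
      have e1 := hbil 1
      have e2 := hbil t
      rw [hdg, hdg] at e1 e2
      rw [star_one] at e1
      have h3 : (star t - t) * w (i, j) = 0 := by linear_combination e2 - t * e1
      refine (mul_eq_zero.1 h3).resolve_left fun h4 => ht2 ?_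
      rw [hstar, sub_eq_zero] at h4
      rw [sq]
      nth_rewrite 1 [← h4]
      rw [← pow_succ, ht]
    set κ := (fun p : Fin m × Fin m => x p.1 * star (x p.2)) ⬝ᵥ w
    set xM : Matrix (Fin m) (Fin 1) K := Matrix.of fun i _ => x i with hxM
    have hS : ∀ z : K, ∃ S : Matrix (Fin m) (Fin m) K, Sᴴ = -((z • xM) * (z • xM)ᴴ) - S := by
      intro z
      obtain ⟨c, hc⟩ := CfsgLib.Unitary.exists_trace_eq hF (a := -(z * star z)) (by
        rw [← hstar, star_neg, star_mul', star_star, mul_comm])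
      refine ⟨c • (xM * xMᴴ), ?_⟩
      rw [conjTranspose_smul, conjTranspose_smul, conjTranspose_mul, conjTranspose_conjTranspose, Matrix.smul_mul,
        Matrix.mul_smul, smul_smul, ← neg_smul, ← sub_smul, ← hc, hstar c, add_sub_cancel_left]
    choose S hS using hS
    have hex : ∀ z : K, ∃ g : ↥(Cfsg.SU n K q),
        ((g : Matrix.SpecialLinearGroup (Fin n) K) : Matrix (Fin n) (Fin n) K) = heisMat E u (z • xM) (S z) :=
      fun z => exists_SU_of_unitary hF hstar _ (hu.heisMat_unitary h _ _ (hS z)) (hu.heisMat_det h _ _)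
    choose g hg using hex
    have hmaps : ∀ z, ∀ e ∈ Wt, (Φ (g z)).mulVecLin e ∈ Wt := by
      intro z e he
      rw [hWt, mem_weightSpace] at he ⊢
      intro v
      have hcm : sU v * g z = g z * sU v := hinj _ _ (by
        rw [Subgroup.coe_mul, Matrix.SpecialLinearGroup.coe_mul, Subgroup.coe_mul,
          Matrix.SpecialLinearGroup.coe_mul, hsU, hg, hu.siegelMat_heis h])
      rw [Matrix.mulVecLin_apply, Matrix.mulVec_mulVec]
      show (Φ (sU v) * Φ (g z)) *ᵥ e = _
      rw [← map_mul, hcm, map_mul, ← Matrix.mulVec_mulVec, he v, Matrix.mulVec_smul]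
    let P : K → (Wt →ₗ[ℂ] Wt) := fun z => (Φ (g z)).mulVecLin.restrict (hmaps z)
    have hP : ∀ z, IsUnit (P z) := fun z => by
      refine (Module.End.isUnit_iff _).2 ?_
      have hi : Function.Injective (P z) := fun a b e => Subtype.ext (by
        have e1 := congrArg (fun v : Wt => Φ (g z)⁻¹ *ᵥ (v : Fin k → ℂ)) e
        simpa [P, Matrix.mulVec_mulVec, ← map_mul] using e1)
      exact ⟨hi, LinearMap.injective_iff_surjective.1 hi⟩
    let χ : K → AddChar K ℂ := fun z =>
      { toFun := fun z' => ψ (z * star z' * κ)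
        map_zero_eq_one' := by simp
        map_add_eq_mul' := fun a b => by
          rw [← ψ.map_add_eq_mul]; congr 1; rw [star_add]; ring }
    have hcomm : ∀ z z', P z' * P z = χ z z' • (P z * P z') := by
      intro z z'
      refine LinearMap.ext fun e => Subtype.ext ?_
      let V : Fin m × Fin m → K := fun p => z * star z' * (x p.1 * star (x p.2))
      have hV : skewOf V = (z • xM) * (z' • xM)ᴴ - (z' • xM) * (z • xM)ᴴ := by
        ext a b
        simp [skewOf, V, xM, Matrix.mul_apply, star_mul']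
        ring
      have hcm : g z' * g z = sU V * (g z * g z') := hinj _ _ (by
        simp only [Subgroup.coe_mul, Matrix.SpecialLinearGroup.coe_mul, hsU, hg, hV]
        rw [hu.heisMat_mul h])
      have hdot : w ⬝ᵥ V = z * star z' * κ := by
        rw [show κ = w ⬝ᵥ (fun p => x p.1 * star (x p.2)) from dotProduct_comm _ _]
        simp only [V, dotProduct, Finset.mul_sum]
        exact Finset.sum_congr rfl fun p _ => by ring
      have hmem : ∀ v, R v *ᵥ (Φ (g z) *ᵥ (Φ (g z') *ᵥ (e : Fin k → ℂ))) =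
          ψ (w ⬝ᵥ v) • (Φ (g z) *ᵥ (Φ (g z') *ᵥ (e : Fin k → ℂ))) :=
        (mem_weightSpace ψ R).1 (hmaps z _ (hmaps z' _ e.2))
      have e1 : Φ (g z') *ᵥ (Φ (g z) *ᵥ (e : Fin k → ℂ)) =
          ψ (w ⬝ᵥ V) • (Φ (g z) *ᵥ (Φ (g z') *ᵥ (e : Fin k → ℂ))) := by
        rw [Matrix.mulVec_mulVec, ← map_mul, hcm, map_mul, ← Matrix.mulVec_mulVec, map_mul,
          ← Matrix.mulVec_mulVec]
        exact hmem V
      rw [hdot] at e1
      exact e1
    have hχ : ∀ i j, i ≠ j → χ i ≠ χ j := by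
      intro i j hij e
      obtain ⟨r, hr⟩ := hψ ((i - j) * κ) (mul_ne_zero (sub_ne_zero.2 hij) hx)
      refine hr ?_
      have e1 := DFunLike.congr_fun e (star r)
      change ψ (i * star (star r) * κ) = ψ (j * star (star r) * κ) at e1
      rw [star_star] at e1
      rw [show (i - j) * κ * r = i * r * κ + -(j * r * κ) by ring, ψ.map_add_eq_mul, e1, ← ψ.map_add_eq_mul,
        add_neg_cancel, ψ.map_zero_eq_one]
    have := card_le_sq_finrank P hP χ hχ hcomm
    rw [hF] at this
    exact (Nat.pow_le_pow_iff_left two_ne_zero).1 this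
  · intro H hH hH0
    have := card_hOrbit_gl hF hstar m H hH hH0
    rw [← pow_mul] at this
    refine Nat.div_le_of_le_mul ?_
    omega

end CfsgLib.UnitMinDegree
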