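import Cfsg.Agent.Classical.Unitary.Group
import Mathlib.LinearAlgebra.Matrix.SchurComplement

/-!
Isotropic frames for the standard Hermitian form, with Siegel and Levi elements in matrix form.
-/

set_option autoImplicit false

namespace CfsgLib.UnitMinDegree

open Matrix

/-- The star structure `x ↦ x ^ q` of a field with `q ^ 2` elements. -/
@[reducible] def starRingOfCard {K : Type*} [Field K] [Fintype K] {q : ℕ} (hF : Fintype.card K = q ^ 2) :
    StarRing K where
  star x := x ^ q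
  star_involutive x := CfsgLib.Unitary.pow_q_q hF x
  star_mul a b := by rw [mul_pow, mul_comm]
  star_add a b := CfsgLib.Unitary.add_pow_q hF a b

variable {K : Type*} [Field K] [StarRing K] {n m q : ℕ}

/-- A matrix preserving the form is one with `Mᴴ * M = 1`. -/
theorem exists_SU_of_unitary [Fintype K] (hF : Fintype.card K = q ^ 2) (hstar : ∀ x : K, star x = x ^ q)
    (M : Matrix (Fin n) (Fin n) K) (h : Mᴴ * M = 1) (hd : M.det = 1) :
    ∃ g : ↥(Cfsg.SU n K q), ((g : Matrix.SpecialLinearGroup (Fin n) K) : Matrix (Fin n) (Fin n) K) = M := by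
  refine ⟨⟨⟨M, hd⟩, CfsgLib.Unitary.mem_SU.2
    ((CfsgLib.Unitary.preserves_iff_orthonorm_cols hF M).2 fun i j => ?_)⟩, rfl⟩
  have h1 := congrFun (congrFun h j) i
  rw [Matrix.one_apply, Matrix.mul_apply] at h1
  simp only [Matrix.conjTranspose_apply, hstar, eq_comm (a := j)] at h1
  rw [← h1]
  exact Finset.sum_congr rfl fun r _ => by simp only [CfsgLib.Unitary.cols]; ring

/-- A hyperbolic frame. -/
structure HFrame (E G : Matrix (Fin n) (Fin m) K) : Prop where
  ee : Eᴴ * E = 0
  gg : Gᴴ * G = 0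
  eg : Eᴴ * G = 1

namespace HFrame

variable {E G : Matrix (Fin n) (Fin m) K} (h : HFrame E G)
include h

theorem ge : Gᴴ * E = 1 := by
  rw [← conjTranspose_conjTranspose (Gᴴ * E), conjTranspose_mul, conjTranspose_conjTranspose, h.eg,
    conjTranspose_one]

theorem swap : HFrame G E := ⟨h.gg, h.ee, h.ge⟩

theorem ee' {l : Type*} [Fintype l] (Y : Matrix (Fin m) l K) : Eᴴ * (E * Y) = 0 := by
  rw [← Matrix.mul_assoc, h.ee, Matrix.zero_mul]

theorem gg' {l : Type*} [Fintype l] (Y : Matrix (Fin m) l K) : Gᴴ * (G * Y) = 0 := by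
  rw [← Matrix.mul_assoc, h.gg, Matrix.zero_mul]

theorem eg' {l : Type*} [Fintype l] (Y : Matrix (Fin m) l K) : Eᴴ * (G * Y) = Y := by
  rw [← Matrix.mul_assoc, h.eg, Matrix.one_mul]

theorem ge' {l : Type*} [Fintype l] (Y : Matrix (Fin m) l K) : Gᴴ * (E * Y) = Y := by
  rw [← Matrix.mul_assoc, h.ge, Matrix.one_mul]

end HFrame

/-- The Siegel element `1 + E S Eᴴ`. -/
def siegelMat (E : Matrix (Fin n) (Fin m) K) (S : Matrix (Fin m) (Fin m) K) : Matrix (Fin n) (Fin n) K :=
  1 + E * S * Eᴴ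

/-- The Levi element of `Q`. -/
noncomputable def leviMat (E G : Matrix (Fin n) (Fin m) K) (Q : Matrix (Fin m) (Fin m) K) :
    Matrix (Fin n) (Fin n) K :=
  1 + E * (Q⁻¹ - 1) * Gᴴ + G * (Qᴴ - 1) * Eᴴ

section Identities

variable {E G : Matrix (Fin n) (Fin m) K} (h : HFrame E G)

include h

theorem siegelMat_add (S T : Matrix (Fin m) (Fin m) K) :
    siegelMat E (S + T) = siegelMat E S * siegelMat E T := by
  simp only [siegelMat, Matrix.mul_add, Matrix.add_mul, Matrix.mul_one, Matrix.one_mul, Matrix.mul_assoc,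
    h.ee', Matrix.mul_zero, add_zero]
  abel

theorem siegelMat_unitary (S : Matrix (Fin m) (Fin m) K) (hS : Sᴴ = -S) :
    (siegelMat E S)ᴴ * siegelMat E S = 1 := by
  simp only [siegelMat, conjTranspose_add, conjTranspose_one, conjTranspose_mul, conjTranspose_conjTranspose,
    hS, Matrix.mul_add, Matrix.add_mul, Matrix.mul_one, Matrix.one_mul, Matrix.mul_assoc,
    h.ee', Matrix.mul_zero, Matrix.neg_mul, Matrix.mul_neg, add_zero, neg_zero]
  abel

theorem siegelMat_det (S : Matrix (Fin m) (Fin m) K) : (siegelMat E S).det = 1 := by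
  rw [siegelMat, Matrix.mul_assoc, Matrix.det_one_add_mul_comm, Matrix.mul_assoc, h.ee, Matrix.mul_zero,
    add_zero, Matrix.det_one]

theorem leviMat_det (Q : Matrix (Fin m) (Fin m) K) :
    (leviMat E G Q).det = Q⁻¹.det * star Q.det := by
  have hfac : leviMat E G Q = (1 + E * (Q⁻¹ - 1) * Gᴴ) * (1 + G * (Qᴴ - 1) * Eᴴ) := by
    simp only [leviMat, Matrix.mul_add, Matrix.add_mul, Matrix.mul_one, Matrix.one_mul, Matrix.mul_assoc,
      h.gg', Matrix.mul_zero, add_zero]
  rw [hfac, Matrix.det_mul, Matrix.det_one_add_mul_comm (E * (Q⁻¹ - 1)) Gᴴ, ← Matrix.mul_assoc Gᴴ, h.ge,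
    Matrix.one_mul, Matrix.det_one_add_mul_comm (G * (Qᴴ - 1)) Eᴴ, ← Matrix.mul_assoc Eᴴ, h.eg,
    Matrix.one_mul, add_sub_cancel, add_sub_cancel, Matrix.det_conjTranspose]

theorem leviMat_unitary (Q : Matrix (Fin m) (Fin m) K) (hQ : Q.det ≠ 0) :
    (leviMat E G Q)ᴴ * leviMat E G Q = 1 := by
  have h1 : Q * Q⁻¹ = 1 := Matrix.mul_nonsing_inv _ hQ.isUnit
  have h2 : (Q⁻¹)ᴴ * Qᴴ = 1 := by rw [← conjTranspose_mul, h1, conjTranspose_one]
  have h1' : ∀ Y : Matrix (Fin m) (Fin n) K, Q * (Q⁻¹ * Y) = Y := fun Y => by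
    rw [← Matrix.mul_assoc, h1, Matrix.one_mul]
  have h2' : ∀ Y : Matrix (Fin m) (Fin n) K, (Q⁻¹)ᴴ * (Qᴴ * Y) = Y := fun Y => by
    rw [← Matrix.mul_assoc, h2, Matrix.one_mul]
  simp only [leviMat, conjTranspose_add, conjTranspose_one, conjTranspose_mul, conjTranspose_sub,
    conjTranspose_conjTranspose, Matrix.mul_add, Matrix.add_mul, Matrix.mul_one, Matrix.one_mul,
    Matrix.sub_mul, Matrix.mul_sub, Matrix.mul_assoc, h.ee', h.gg', h.eg', h.ge', h1', h2', Matrix.mul_zero,
    add_zero, sub_zero, sub_self]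
  abel

theorem siegelMat_levi (Q : Matrix (Fin m) (Fin m) K) (hQ : Q.det ≠ 0) (S : Matrix (Fin m) (Fin m) K) :
    siegelMat E S * leviMat E G Q = leviMat E G Q * siegelMat E (Q * S * Qᴴ) := by
  have h1' : ∀ Y : Matrix (Fin m) (Fin n) K, Q⁻¹ * (Q * Y) = Y := fun Y => by
    rw [← Matrix.mul_assoc, Matrix.nonsing_inv_mul _ hQ.isUnit, Matrix.one_mul]
  simp only [siegelMat, leviMat, Matrix.mul_add, Matrix.add_mul, Matrix.mul_one, Matrix.one_mul,
    Matrix.sub_mul, Matrix.mul_sub, Matrix.mul_assoc, h.ee', h.eg', h.ge', h1', Matrix.mul_zero,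
    add_zero, sub_zero, sub_self]
  abel

end Identities

/-! ### The middle vector -/

/-- The unipotent element with parameters `a`, `S`. -/
def heisMat (E : Matrix (Fin n) (Fin m) K) (u : Matrix (Fin n) (Fin 1) K) (a : Matrix (Fin m) (Fin 1) K)
    (S : Matrix (Fin m) (Fin m) K) : Matrix (Fin n) (Fin n) K :=
  1 + E * a * uᴴ - u * aᴴ * Eᴴ + E * S * Eᴴ

/-- A scalar on the middle vector. -/
def midMat (u : Matrix (Fin n) (Fin 1) K) (β : K) : Matrix (Fin n) (Fin n) K :=
  1 + (β - 1) • (u * uᴴ)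

/-- The middle vector is orthonormal and orthogonal to the frame. -/
structure MidVec (E G : Matrix (Fin n) (Fin m) K) (u : Matrix (Fin n) (Fin 1) K) : Prop where
  uu : uᴴ * u = 1
  eu : Eᴴ * u = 0
  gu : Gᴴ * u = 0

namespace MidVec

variable {E G : Matrix (Fin n) (Fin m) K} {u : Matrix (Fin n) (Fin 1) K} (hu : MidVec E G u)
include hu

theorem ue : uᴴ * E = 0 := by
  rw [← conjTranspose_conjTranspose (uᴴ * E), conjTranspose_mul, conjTranspose_conjTranspose, hu.eu,
    conjTranspose_zero]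

theorem ug : uᴴ * G = 0 := by
  rw [← conjTranspose_conjTranspose (uᴴ * G), conjTranspose_mul, conjTranspose_conjTranspose, hu.gu,
    conjTranspose_zero]

theorem uu' {l : Type*} [Fintype l] (Y : Matrix (Fin 1) l K) : uᴴ * (u * Y) = Y := by
  rw [← Matrix.mul_assoc, hu.uu, Matrix.one_mul]

theorem eu' {l : Type*} [Fintype l] (Y : Matrix (Fin 1) l K) : Eᴴ * (u * Y) = 0 := by
  rw [← Matrix.mul_assoc, hu.eu, Matrix.zero_mul]

theorem gu' {l : Type*} [Fintype l] (Y : Matrix (Fin 1) l K) : Gᴴ * (u * Y) = 0 := by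
  rw [← Matrix.mul_assoc, hu.gu, Matrix.zero_mul]

theorem ue' {l : Type*} [Fintype l] (Y : Matrix (Fin m) l K) : uᴴ * (E * Y) = 0 := by
  rw [← Matrix.mul_assoc, hu.ue, Matrix.zero_mul]

theorem ug' {l : Type*} [Fintype l] (Y : Matrix (Fin m) l K) : uᴴ * (G * Y) = 0 := by
  rw [← Matrix.mul_assoc, hu.ug, Matrix.zero_mul]

theorem heisMat_unitary (h : HFrame E G) (a : Matrix (Fin m) (Fin 1) K) (S : Matrix (Fin m) (Fin m) K)
    (hS : Sᴴ = -(a * aᴴ) - S) : (heisMat E u a S)ᴴ * heisMat E u a S = 1 := by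
  simp only [heisMat, conjTranspose_add, conjTranspose_sub, conjTranspose_one, conjTranspose_mul,
    conjTranspose_conjTranspose, hS, Matrix.mul_add, Matrix.add_mul, Matrix.mul_sub, Matrix.sub_mul,
    Matrix.mul_one, Matrix.one_mul, Matrix.mul_assoc, h.ee', hu.uu', hu.eu', hu.ue', Matrix.neg_mul,
    Matrix.mul_neg, Matrix.mul_zero, add_zero, sub_zero, neg_zero, sub_self]
  abel

theorem heisMat_det (h : HFrame E G) (a : Matrix (Fin m) (Fin 1) K) (S : Matrix (Fin m) (Fin m) K) :
    (heisMat E u a S).det = 1 := by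
  have hfac : heisMat E u a S = (1 + E * (a * uᴴ)) * (1 + (E * (S + a * aᴴ) - u * aᴴ) * Eᴴ) := by
    simp only [heisMat, Matrix.mul_add, Matrix.add_mul, Matrix.mul_sub, Matrix.sub_mul, Matrix.mul_one,
      Matrix.one_mul, Matrix.mul_assoc, hu.ue', hu.uu', Matrix.mul_zero, add_zero, zero_sub]
    abel
  rw [hfac, Matrix.det_mul, Matrix.det_one_add_mul_comm, Matrix.mul_assoc a, hu.ue, Matrix.mul_zero, add_zero,
    Matrix.det_one, one_mul, Matrix.det_one_add_mul_comm, Matrix.mul_sub, h.ee', hu.eu', sub_zero, add_zero,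
    Matrix.det_one]

theorem heisMat_mul (h : HFrame E G) (a b : Matrix (Fin m) (Fin 1) K) (S T : Matrix (Fin m) (Fin m) K) :
    heisMat E u a S * heisMat E u b T = siegelMat E (b * aᴴ - a * bᴴ) * (heisMat E u b T * heisMat E u a S) := by
  simp only [heisMat, siegelMat, Matrix.mul_add, Matrix.add_mul, Matrix.mul_sub, Matrix.sub_mul, Matrix.mul_one,
    Matrix.one_mul, Matrix.mul_assoc, h.ee', hu.uu', hu.eu', hu.ue', Matrix.mul_zero, add_zero, sub_zero,
    zero_sub, sub_self]
  abel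

theorem siegelMat_heis (h : HFrame E G) (a : Matrix (Fin m) (Fin 1) K) (S T : Matrix (Fin m) (Fin m) K) :
    siegelMat E T * heisMat E u a S = heisMat E u a S * siegelMat E T := by
  simp only [heisMat, siegelMat, Matrix.mul_add, Matrix.add_mul, Matrix.mul_sub, Matrix.sub_mul, Matrix.mul_one,
    Matrix.one_mul, Matrix.mul_assoc, h.ee', hu.eu', hu.ue', Matrix.mul_zero, add_zero, sub_zero]
  abel

theorem midMat_det (β : K) : (midMat u β).det = β := by
  rw [midMat, ← Matrix.smul_mul, Matrix.det_one_add_mul_comm, Matrix.mul_smul, hu.uu, Matrix.det_fin_one]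
  simp

theorem midMat_unitary (β : K) (hβ : star β * β = 1) : (midMat u β)ᴴ * midMat u β = 1 := by
  have e : star (β - 1) + (β - 1) + star (β - 1) * (β - 1) = 0 := by
    rw [star_sub, star_one]; linear_combination hβ
  simp only [midMat, conjTranspose_add, conjTranspose_one, conjTranspose_smul, conjTranspose_mul,
    conjTranspose_conjTranspose, Matrix.mul_add, Matrix.add_mul, Matrix.mul_one, Matrix.one_mul,
    Matrix.smul_mul, Matrix.mul_smul, Matrix.mul_assoc, hu.uu', smul_smul, smul_add]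
  have : star (β - 1) + ((β - 1) + (β - 1) * star (β - 1)) = 0 := by linear_combination e
  rw [← add_smul, add_assoc, ← add_smul, this, zero_smul, add_zero]

theorem siegelMat_mid (β : K) (S : Matrix (Fin m) (Fin m) K) :
    siegelMat E S * midMat u β = midMat u β * siegelMat E S := by
  simp only [midMat, siegelMat, Matrix.mul_add, Matrix.add_mul, Matrix.mul_one, Matrix.one_mul,
    Matrix.smul_mul, Matrix.mul_smul, Matrix.mul_assoc, hu.eu', hu.ue', Matrix.mul_zero, smul_zero, add_zero]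
  abel

end MidVec

/-! ### Standard frames -/

/-- A selection matrix. -/
def selMat (f : Fin m → Fin n) : Matrix (Fin n) (Fin m) K := fun r i => if r = f i then 1 else 0

theorem selMat_mul {l : ℕ} (f : Fin m → Fin n) (g : Fin l → Fin n) :
    (selMat f : Matrix (Fin n) (Fin m) K)ᴴ * (selMat g : Matrix (Fin n) (Fin l) K) =
      fun i j => if f i = g j then 1 else 0 := by
  ext i j
  simp [Matrix.mul_apply, Matrix.conjTranspose_apply, selMat, apply_ite (star : K → K), eq_comm]

theorem exists_frame [Fintype K] (hF : Fintype.card K = q ^ 2) (hstar : ∀ x : K, star x = x ^ q)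
    (hmn : 2 * m ≤ n) :
    ∃ E G : Matrix (Fin n) (Fin m) K, HFrame E G ∧ (2 * m < n → ∃ u, MidVec E G u) := by
  obtain ⟨δ, hδ⟩ := CfsgLib.Unitary.exists_norm_eq hF (a := (-1 : K))
    (by rw [CfsgLib.Unitary.neg_pow_q hF, one_pow])
  have hδs : star δ * δ = -1 := by rw [hstar, ← pow_succ, hδ]
  obtain ⟨ζ, hζ, hζ2⟩ := CfsgLib.Unitary.exists_norm_one_ne_inv hF
  have hζs : star ζ * ζ = 1 := by rw [hstar, ← pow_succ, hζ]
  have hζ1 : (1 : K) - ζ ≠ 0 := fun h => hζ2 (by rw [← sub_eq_zero.1 h, one_pow])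
  set a : Fin m → Fin n := fun i => ⟨2 * i.val, by omega⟩
  set b : Fin m → Fin n := fun i => ⟨2 * i.val + 1, by omega⟩
  have aa : (selMat (K := K) a)ᴴ * selMat (K := K) a = 1 := by
    rw [selMat_mul]; ext i j; simp [a, Matrix.one_apply, Fin.ext_iff]
  have bb : (selMat (K := K) b)ᴴ * selMat (K := K) b = 1 := by
    rw [selMat_mul]; ext i j; simp [b, Matrix.one_apply, Fin.ext_iff]
  have ab : (selMat (K := K) a)ᴴ * selMat (K := K) b = 0 := by
    rw [selMat_mul]; ext i j; simp [a, b, Fin.ext_iff]; omega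
  have ba : (selMat (K := K) b)ᴴ * selMat (K := K) a = 0 := by
    rw [selMat_mul]; ext i j; simp [a, b, Fin.ext_iff]; omega
  set x : K := (1 - ζ)⁻¹
  set y : K := δ * ζ * x
  refine ⟨selMat a + δ • selMat b, x • selMat a + y • selMat b, ⟨?_, ?_, ?_⟩, fun hlt => ?_⟩
  · simp only [conjTranspose_add, conjTranspose_smul, Matrix.mul_add, Matrix.add_mul, Matrix.smul_mul,
      Matrix.mul_smul, aa, bb, ab, ba, smul_zero, add_zero, zero_add, smul_smul]
    rw [mul_comm, hδs]; simp
  · simp only [conjTranspose_add, conjTranspose_smul, Matrix.mul_add, Matrix.add_mul, Matrix.smul_mul,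
      Matrix.mul_smul, aa, bb, ab, ba, smul_zero, add_zero, zero_add, smul_smul, ← add_smul]
    have : x * star x + y * star y = 0 := by
      simp only [y, star_mul']
      linear_combination (x * star x * ζ * star ζ) * hδs - (x * star x) * hζs
    rw [this, zero_smul]
  · simp only [conjTranspose_add, conjTranspose_smul, Matrix.mul_add, Matrix.add_mul, Matrix.smul_mul,
      Matrix.mul_smul, aa, bb, ab, ba, smul_zero, add_zero, zero_add, smul_smul, ← add_smul]
    have : x + y * star δ = 1 := by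
      simp only [y]
      have hx : x * (1 - ζ) = 1 := inv_mul_cancel₀ hζ1
      linear_combination hx + (x * ζ) * hδs
    rw [this, one_smul]
  · set c : Fin 1 → Fin n := fun _ => ⟨2 * m, hlt⟩
    have ac : (selMat (K := K) a)ᴴ * selMat (K := K) c = 0 := by
      rw [selMat_mul]; ext i j; simp [a, c, Fin.ext_iff]; omega
    have bc : (selMat (K := K) b)ᴴ * selMat (K := K) c = 0 := by
      rw [selMat_mul]; ext i j; simp [b, c, Fin.ext_iff]; omega
    refine ⟨selMat c, ⟨?_, ?_, ?_⟩⟩
    · rw [selMat_mul]; ext i j; simp [c, Matrix.one_apply, Subsingleton.elim i j]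
    · simp only [conjTranspose_add, conjTranspose_smul, Matrix.add_mul, Matrix.smul_mul, ac, bc, smul_zero,
        add_zero]
    · simp only [conjTranspose_add, conjTranspose_smul, Matrix.add_mul, Matrix.smul_mul, ac, bc, smul_zero,
        add_zero]

end CfsgLib.UnitMinDegree
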