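import Cfsg.Agent.Classical.Unitary.Field
import Cfsg.Agent.SympWeil.SymOrbit

/-!
Congruence orbits of nonzero Hermitian matrices over `GF(q^2)` have at least `(q^{2k}-1)/(q+1)`
elements, also for congruences with determinant in `GF(q)` when `k ≥ 2`.
-/

set_option autoImplicit false

namespace CfsgLib.UnitMinDegree

open Matrix

variable {K : Type*} [Field K] [StarRing K]

/-- `A * M * Aᴴ` entrywise. -/
theorem hcongr_apply {k : ℕ} (A M : Matrix (Fin k) (Fin k) K) (i j : Fin k) :
    (A * M * Aᴴ) i j = A i ⬝ᵥ (M *ᵥ star (A j)) := by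
  simp only [dotProduct, Matrix.mulVec, Matrix.mul_apply, Matrix.conjTranspose_apply, Finset.sum_mul,
    Finset.mul_sum, Pi.star_apply]
  rw [Finset.sum_comm]
  simp only [mul_assoc]

/-- Hermitian congruence orbit under matrices satisfying `P`. -/
noncomputable def hOrbit [Fintype K] {k : ℕ} (P : Matrix (Fin k) (Fin k) K → Prop)
    (W : Matrix (Fin k) (Fin k) K) : Finset (Matrix (Fin k) (Fin k) K) := by
  classical
  exact Finset.univ.filter fun M => ∃ A, P A ∧ A * W * Aᴴ = M

/-- Invertible. -/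
def GLCond {k : ℕ} (A : Matrix (Fin k) (Fin k) K) : Prop := A.det ≠ 0

/-- Invertible with self-adjoint determinant. -/
def RealDetCond {k : ℕ} (A : Matrix (Fin k) (Fin k) K) : Prop := A.det ≠ 0 ∧ star A.det = A.det

theorem mem_hOrbit [Fintype K] {k : ℕ} {P : Matrix (Fin k) (Fin k) K → Prop}
    {W M : Matrix (Fin k) (Fin k) K} : M ∈ hOrbit P W ↔ ∃ A, P A ∧ A * W * Aᴴ = M := by
  simp [hOrbit]

/-- An invertible matrix of determinant one with a given first row. -/
theorem exists_det_one_row {k : ℕ} {x : Fin (k + 2) → K} (hx : x ≠ 0) :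
    ∃ A : Matrix (Fin (k + 2)) (Fin (k + 2)) K, A.det = 1 ∧ A 0 = x := by
  obtain ⟨A, hA, hAx⟩ := CfsgLib.SympWeil.exists_det_row hx
  refine ⟨A.updateRow 1 (A.det⁻¹ • A 1), ?_, ?_⟩
  · rw [Matrix.det_updateRow_smul, Matrix.updateRow_eq_self, inv_mul_cancel₀ hA]
  · rw [Matrix.updateRow_ne (by simp), hAx]

/-- `SL_k` is transitive on nonzero vectors, `k ≥ 2`. -/
theorem exists_det_one_mulVec {k : ℕ} {x y : Fin (k + 2) → K} (hx : x ≠ 0) (hy : y ≠ 0) :
    ∃ G : Matrix (Fin (k + 2)) (Fin (k + 2)) K, G.det = 1 ∧ G *ᵥ x = y := by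
  obtain ⟨A, hA, hAx⟩ := exists_det_one_row hx
  obtain ⟨B, hB, hBy⟩ := exists_det_one_row hy
  have hA' : IsUnit Aᵀ.det := by rw [Matrix.det_transpose, hA]; exact isUnit_one
  have e : ∀ M : Matrix (Fin (k + 2)) (Fin (k + 2)) K, Mᵀ *ᵥ Pi.single 0 1 = M 0 := fun M => by
    rw [Matrix.mulVec_single_one]; rfl
  refine ⟨Bᵀ * (Aᵀ)⁻¹, ?_, ?_⟩
  · rw [Matrix.det_mul, Matrix.det_transpose, Matrix.det_nonsing_inv, Matrix.det_transpose, hA, hB,
      Ring.inverse_one, mul_one]
  · rw [← hAx, ← e A, Matrix.mulVec_mulVec, Matrix.mul_assoc, Matrix.nonsing_inv_mul _ hA', Matrix.mul_one,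
      e B, hBy]

/-- Block matrix `[[α, 0], [u, G]]`. -/
def hLow {k : ℕ} (α : K) (u : Fin k → K) (G : Matrix (Fin k) (Fin k) K) :
    Matrix (Fin (k + 1)) (Fin (k + 1)) K :=
  Matrix.of (Fin.cons (Fin.cons α 0) fun i => Fin.cons (u i) (G i))

omit [StarRing K] in
theorem det_hLow {k : ℕ} (α : K) (u : Fin k → K) (G : Matrix (Fin k) (Fin k) K) :
    (hLow α u G).det = α * G.det := by
  rw [Matrix.det_succ_row_zero, Finset.sum_eq_single 0]
  · have : (hLow α u G).submatrix Fin.succ (Fin.succAbove 0) = G := by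
      ext i j; simp [hLow]
    rw [this]; simp [hLow]
  · intro j _ hj
    obtain ⟨j, rfl⟩ := Fin.exists_succ_eq.2 hj
    simp [hLow]
  · simp

theorem congr_hLow_zero {k : ℕ} (α : K) (u : Fin k → K) (G : Matrix (Fin k) (Fin k) K)
    (M : Matrix (Fin (k + 1)) (Fin (k + 1)) K) :
    (hLow α u G * M * (hLow α u G)ᴴ) 0 0 = α * star α * M 0 0 := by
  simp [hcongr_apply, hLow, dotProduct, Matrix.mulVec, Fin.sum_univ_succ]
  ring

theorem congr_hLow_col {k : ℕ} (α : K) (u : Fin k → K) (G : Matrix (Fin k) (Fin k) K)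
    (M : Matrix (Fin (k + 1)) (Fin (k + 1)) K) (i : Fin k) :
    (hLow α u G * M * (hLow α u G)ᴴ) i.succ 0 =
      star α * (u i * M 0 0 + (G *ᵥ fun j => M j.succ 0) i) := by
  simp [hcongr_apply, hLow, dotProduct, Matrix.mulVec, Fin.sum_univ_succ, mul_add, Finset.mul_sum]
  refine congrArg₂ (· + ·) (by ring) (Finset.sum_congr rfl fun j _ => by ring)

theorem congr_hLow_block {k : ℕ} (α : K) (G : Matrix (Fin k) (Fin k) K)
    (M : Matrix (Fin (k + 1)) (Fin (k + 1)) K) :
    (hLow α 0 G * M * (hLow α 0 G)ᴴ).submatrix Fin.succ Fin.succ =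
      G * M.submatrix Fin.succ Fin.succ * Gᴴ := by
  ext i j
  simp [hcongr_apply, hLow, dotProduct, Matrix.mulVec, Fin.sum_univ_succ]

section Count

variable [Fintype K] {q : ℕ} (hF : Fintype.card K = q ^ 2) (hstar : ∀ x : K, star x = x ^ q)

include hF hstar in
theorem card_selfAdjoint_ne_zero [DecidableEq K] :
    ((Finset.univ.filter fun x : K => star x = x).erase 0).card = q - 1 := by
  rw [Finset.card_erase_of_mem (by simp)]
  have h := CfsgLib.Unitary.card_fixed hF
  rw [Nat.card_eq_fintype_card, Fintype.card_subtype] at h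
  simp only [hstar]
  rw [h]

omit [Fintype K] in
theorem star_value {k : ℕ} {W : Matrix (Fin k) (Fin k) K} (hW : Wᴴ = W) (x : Fin k → K) :
    star (x ⬝ᵥ (W *ᵥ star x)) = x ⬝ᵥ (W *ᵥ star x) := by
  conv_rhs => rw [← hW]
  simp only [dotProduct, Matrix.mulVec, star_sum, star_mul', Matrix.conjTranspose_apply, Pi.star_apply,
    Finset.mul_sum, star_star]
  rw [Finset.sum_comm]
  refine Finset.sum_congr rfl fun i _ => Finset.sum_congr rfl fun j _ => ?_
  ring

include hF hstar in
/-- A nonzero Hermitian matrix represents every nonzero self-adjoint scalar. -/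
theorem exists_value {k : ℕ} {W : Matrix (Fin k) (Fin k) K} (hW : Wᴴ = W) (hW0 : W ≠ 0) {c : K}
    (hc : star c = c) : ∃ x, x ⬝ᵥ (W *ᵥ star x) = c := by
  classical
  obtain ⟨x, hx⟩ : ∃ x, x ⬝ᵥ (W *ᵥ star x) ≠ 0 := by
    by_contra h0
    push Not at h0
    refine hW0 (Matrix.ext fun i j => ?_)
    have hs : ∀ (a : K) (l : Fin k), star (Pi.single l a : Fin k → K) = Pi.single l (star a) := fun a l => by
      funext r
      by_cases h : r = l
      · subst h; simp
      · simp [h]
    have hd : ∀ l, W l l = 0 := fun l => by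
      have := h0 (Pi.single l 1)
      simpa [hs] using this
    have key : ∀ t : K, star t * W i j + t * W j i = 0 := fun t => by
      have h := h0 (Pi.single i 1 + Pi.single j t)
      simp [hs, Matrix.mulVec_add, add_dotProduct, dotProduct_add, hd] at h
      linear_combination h
    obtain ⟨t, ht, ht2⟩ := CfsgLib.Unitary.exists_norm_one_ne_inv hF
    have h1 := key 1
    have h2 := key t
    rw [star_one, one_mul, one_mul] at h1
    have h3 : (star t - t) * W i j = 0 := by linear_combination h2 - t * h1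
    refine (mul_eq_zero.1 h3).resolve_left fun h4 => ht2 ?_
    rw [hstar, sub_eq_zero] at h4
    rw [sq]
    nth_rewrite 1 [← h4]
    rw [← pow_succ, ht]
  obtain ⟨t, ht⟩ := CfsgLib.Unitary.exists_norm_eq hF (a := c / (x ⬝ᵥ (W *ᵥ star x))) (by
    rw [← hstar, star_div₀, hc, star_value hW])
  refine ⟨t • x, ?_⟩
  rw [star_smul, Matrix.mulVec_smul, smul_dotProduct, dotProduct_smul, smul_eq_mul, smul_eq_mul, hstar,
    ← mul_assoc, ← pow_succ', ht, div_mul_cancel₀ _ hx]

include hF hstar in
theorem exists_isotropic {k : ℕ} {W : Matrix (Fin (k + 2)) (Fin (k + 2)) K} (hW : Wᴴ = W) :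
    ∃ x, x ≠ 0 ∧ x ⬝ᵥ (W *ᵥ star x) = 0 := by
  classical
  set e : Fin (k + 2) → K := Pi.single 0 1
  set f : Fin (k + 2) → K := Pi.single 1 1
  have he : e ≠ 0 := fun h => one_ne_zero (show (1 : K) = 0 by simpa [e] using congrFun h 0)
  set a := e ⬝ᵥ (W *ᵥ star e) with ha
  by_cases ha0 : a = 0
  · exact ⟨e, he, ha0⟩
  set b := e ⬝ᵥ (W *ᵥ star f)
  set b' := f ⬝ᵥ (W *ᵥ star e)
  set g : Fin (k + 2) → K := f - (b' / a) • e
  have hb' : star b' = b := by
    conv_rhs => rw [show b = e ⬝ᵥ (Wᴴ *ᵥ star f) by rw [hW]]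
    simp only [b', dotProduct, Matrix.mulVec, star_sum, star_mul', Matrix.conjTranspose_apply, Pi.star_apply,
      Finset.mul_sum, star_star]
    rw [Finset.sum_comm]
    refine Finset.sum_congr rfl fun i _ => Finset.sum_congr rfl fun j _ => ?_
    ring
  have hsa : star a = a := star_value hW e
  set d := g ⬝ᵥ (W *ᵥ star g)
  have hd : star d = d := star_value hW g
  obtain ⟨t, ht⟩ := CfsgLib.Unitary.exists_norm_eq hF (a := -(d / a)) (by
    rw [← hstar, star_neg, star_div₀, hd, hsa])
  refine ⟨t • e + g, fun h => ?_, ?_⟩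
  · have h1 := congrFun h 1
    simp [g, e, f] at h1
  · have hge : g ⬝ᵥ (W *ᵥ star e) = 0 := by
      simp only [g, sub_dotProduct, smul_dotProduct, smul_eq_mul]
      field_simp
      ring
    have heg : e ⬝ᵥ (W *ᵥ star g) = 0 := by
      simp only [g, star_sub, star_smul, Matrix.mulVec_sub, Matrix.mulVec_smul, dotProduct_sub,
        dotProduct_smul, smul_eq_mul, star_div₀, hb', hsa]
      field_simp
      ring
    simp only [star_add, star_smul, Matrix.mulVec_add, Matrix.mulVec_smul, dotProduct_add, add_dotProduct,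
      smul_dotProduct, dotProduct_smul, smul_eq_mul, hge, heg]
    have hN : t * star t = -(d / a) := by rw [hstar, ← pow_succ', ht]
    change star t * (t * a + 0) + (t * 0 + d) = 0
    linear_combination a * hN - div_mul_cancel₀ d ha0

include hF hstar in
/-- The members with nonzero corner entry. -/
theorem card_corner_ne_zero {k : ℕ} (P : Matrix (Fin (k + 1)) (Fin (k + 1)) K → Prop)
    {W : Matrix (Fin (k + 1)) (Fin (k + 1)) K} (hW : Wᴴ = W) (hW0 : W ≠ 0)
    (hmul : ∀ A B : Matrix (Fin (k + 1)) (Fin (k + 1)) K, P A → P B → P (A * B))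
    (hlow : ∀ u : Fin k → K, P (hLow 1 u 1))
    (hrow : ∀ x : Fin (k + 1) → K, x ≠ 0 → ∃ A, P A ∧ A 0 = x) [DecidableEq K] :
    (q - 1) * (q ^ 2) ^ k ≤ ((hOrbit P W).filter fun M => M 0 0 ≠ 0).card := by
  classical
  have hsub : ((Finset.univ.filter fun x : K => star x = x).erase 0) ×ˢ (Finset.univ : Finset (Fin k → K)) ⊆
      ((hOrbit P W).filter fun M => M 0 0 ≠ 0).image (fun M => (M 0 0, fun i : Fin k => M i.succ 0)) := by
    rintro ⟨c, v⟩ hcv
    obtain ⟨hc, hcs⟩ := Finset.mem_erase.1 (Finset.mem_product.1 hcv).1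
    obtain ⟨x, hx⟩ := exists_value hF hstar hW hW0 (Finset.mem_filter.1 hcs).2
    have hx0 : x ≠ 0 := by rintro rfl; exact hc (by simpa using hx.symm)
    obtain ⟨A, hA, hAx⟩ := hrow x hx0
    have hM00 : (A * W * Aᴴ) 0 0 = c := by rw [hcongr_apply, hAx, hx]
    set M := A * W * Aᴴ with hM
    let u : Fin k → K := fun i => (v i - M i.succ 0) / c
    have hmem : hLow 1 u 1 * M * (hLow 1 u 1)ᴴ ∈ hOrbit P W :=
      mem_hOrbit.2 ⟨hLow 1 u 1 * A, hmul _ _ (hlow u) hA, by
        simp [hM, Matrix.conjTranspose_mul, Matrix.mul_assoc]⟩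
    have h00 : (hLow 1 u 1 * M * (hLow 1 u 1)ᴴ) 0 0 = c := by
      rw [congr_hLow_zero, hM00, star_one, one_mul, one_mul]
    refine Finset.mem_image.2 ⟨_, Finset.mem_filter.2 ⟨hmem, by rw [h00]; exact hc⟩,
      Prod.ext h00 (funext fun i => ?_)⟩
    simp only [congr_hLow_col, Matrix.one_mulVec, hM00, u, star_one, one_mul]
    field_simp
    ring
  have h := (Finset.card_le_card hsub).trans Finset.card_image_le
  rwa [Finset.card_product, card_selfAdjoint_ne_zero hF hstar, Finset.card_univ, Fintype.card_fun,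
    Fintype.card_fin, hF] at h

include hF hstar in
/-- Hermitian congruence orbits of `GL_k(q^2)`. -/
theorem card_hOrbit_gl : ∀ (k : ℕ) (W : Matrix (Fin k) (Fin k) K), Wᴴ = W → W ≠ 0 →
    (q ^ 2) ^ k ≤ (q + 1) * (hOrbit GLCond W).card + 1 := by
  classical
  intro k
  induction k with
  | zero => intro W _ _; simp
  | succ k ih =>
    intro W hW hW0
    have hq := CfsgLib.Unitary.two_le_q hF
    set O := hOrbit GLCond W
    have hI := card_corner_ne_zero hF hstar GLCond hW hW0
      (fun A B hA hB => by simp only [GLCond, Matrix.det_mul]; exact mul_ne_zero hA hB)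
      (fun u => by simp [GLCond, det_hLow]) (fun x hx => CfsgLib.SympWeil.exists_det_row hx)
    have hsplit : (O.filter fun M => M 0 0 = 0).card + (O.filter fun M => M 0 0 ≠ 0).card = O.card :=
      by convert Finset.card_filter_add_card_filter_not (s := O) (fun M => M 0 0 = 0) using 4
    have hII : (q ^ 2) ^ k ≤ (q + 1) * (O.filter fun M => M 0 0 = 0).card + 1 := by
      rcases Nat.eq_zero_or_pos k with rfl | hk
      · simp
      obtain ⟨m, rfl⟩ : ∃ m, k = m + 1 := ⟨k - 1, by omega⟩
      obtain ⟨y, hy, hy0⟩ := exists_isotropic hF hstar hW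
      obtain ⟨A, hA, hAy⟩ := CfsgLib.SympWeil.exists_det_row hy
      have hM00 : (A * W * Aᴴ) 0 0 = 0 := by rw [hcongr_apply, hAy, hy0]
      have hMs : (A * W * Aᴴ)ᴴ = A * W * Aᴴ := by simp [Matrix.conjTranspose_mul, hW, Matrix.mul_assoc]
      have hMne : A * W * Aᴴ ≠ 0 := fun h0 => hW0 (by
        have hu : IsUnit A := (Matrix.isUnit_iff_isUnit_det A).2 hA.isUnit
        rw [Matrix.mul_assoc] at h0
        have h1 := hu.mul_left_cancel (h0.trans (mul_zero A).symm)
        exact (hu.star).mul_right_cancel (h1.trans (zero_mul _).symm))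
      set M := A * W * Aᴴ with hM
      have hmem : ∀ (α : K) (G : Matrix (Fin (m + 1)) (Fin (m + 1)) K), α ≠ 0 → G.det ≠ 0 →
          hLow α 0 G * M * (hLow α 0 G)ᴴ ∈ O.filter fun M => M 0 0 = 0 := fun α G hα hG =>
        Finset.mem_filter.2 ⟨mem_hOrbit.2 ⟨hLow α 0 G * A, by
          simp only [GLCond, Matrix.det_mul, det_hLow]; exact mul_ne_zero (mul_ne_zero hα hG) hA, by
          simp [hM, Matrix.conjTranspose_mul, Matrix.mul_assoc]⟩, by rw [congr_hLow_zero, hM00, mul_zero]⟩
      by_cases hb : (fun i : Fin (m + 1) => M i.succ 0) = 0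
      · set W' := M.submatrix Fin.succ Fin.succ
        have hW's : W'ᴴ = W' := by rw [Matrix.conjTranspose_submatrix, hMs]
        have hW'0 : W' ≠ 0 := fun h0 => hMne (Matrix.ext fun i j => by
          refine Fin.cases ?_ (fun i => ?_) i <;> refine Fin.cases ?_ (fun j => ?_) j
          · exact hM00
          · have h1 := congrFun (congrFun hMs 0) j.succ
            rw [Matrix.conjTranspose_apply, show M j.succ 0 = 0 from congrFun hb j, star_zero] at h1
            exact h1.symm
          · exact congrFun hb i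
          · exact congrFun (congrFun h0 i) j)
        refine (ih W' hW's hW'0).trans ?_
        have hsub : hOrbit GLCond W' ⊆ (O.filter fun M => M 0 0 = 0).image (fun N => N.submatrix Fin.succ Fin.succ) := by
          intro N hN
          obtain ⟨G, hG, rfl⟩ := mem_hOrbit.1 hN
          exact Finset.mem_image.2 ⟨_, hmem 1 G one_ne_zero hG, congr_hLow_block 1 G M⟩
        have := (Finset.card_le_card hsub).trans Finset.card_image_le
        gcongr
      · have hsub : (Finset.univ.erase (0 : Fin (m + 1) → K)) ⊆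
            (O.filter fun M => M 0 0 = 0).image (fun N => fun i : Fin (m + 1) => N i.succ 0) := by
          intro v hv
          obtain ⟨G, hG, hGv⟩ := CfsgLib.SympWeil.exists_det_mulVec hb (Finset.ne_of_mem_erase hv)
          refine Finset.mem_image.2 ⟨_, hmem 1 G one_ne_zero hG, funext fun i => ?_⟩
          rw [congr_hLow_col, hGv]
          simp
        have h := (Finset.card_le_card hsub).trans Finset.card_image_le
        rw [Finset.card_erase_of_mem (Finset.mem_univ _), Finset.card_univ, Fintype.card_fun, Fintype.card_fin, hF] at h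
        have h2 : (O.filter fun M => M 0 0 = 0).card ≤ (q + 1) * (O.filter fun M => M 0 0 = 0).card :=
          Nat.le_mul_of_pos_left _ (by omega)
        omega
    calc (q ^ 2) ^ (k + 1) = (q + 1) * ((q - 1) * (q ^ 2) ^ k) + (q ^ 2) ^ k := by
          obtain ⟨r, rfl⟩ : ∃ r, q = r + 1 := ⟨q - 1, by omega⟩
          rw [Nat.add_sub_cancel, pow_succ']; ring
      _ ≤ (q + 1) * (O.filter fun M => M 0 0 ≠ 0).card + ((q + 1) * (O.filter fun M => M 0 0 = 0).card + 1) :=
          add_le_add (Nat.mul_le_mul_left _ hI) hII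
      _ = (q + 1) * O.card + 1 := by rw [← hsplit]; ring

include hF hstar in
/-- Hermitian congruence orbits of matrices with determinant in `GF(q)`. -/
theorem card_hOrbit_realDet (k : ℕ) (W : Matrix (Fin (k + 2)) (Fin (k + 2)) K) (hW : Wᴴ = W) (hW0 : W ≠ 0) :
    (q ^ 2) ^ (k + 2) ≤ (q + 1) * (hOrbit RealDetCond W).card + 1 := by
  classical
  have hq := CfsgLib.Unitary.two_le_q hF
  set O := hOrbit RealDetCond W
  have hP1 : ∀ {l : ℕ} {A : Matrix (Fin l) (Fin l) K}, A.det = 1 → RealDetCond A := fun h => by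
    simp [RealDetCond, h]
  have hI := card_corner_ne_zero hF hstar RealDetCond hW hW0
    (fun A B hA hB => by
      simp only [RealDetCond, Matrix.det_mul, star_mul', hA.2, hB.2, and_true]
      exact mul_ne_zero hA.1 hB.1)
    (fun u => hP1 (by simp [det_hLow]))
    (fun x hx => (exists_det_one_row hx).imp fun A h => ⟨hP1 h.1, h.2⟩)
  have hsplit : (O.filter fun M => M 0 0 = 0).card + (O.filter fun M => M 0 0 ≠ 0).card = O.card :=
    by convert Finset.card_filter_add_card_filter_not (s := O) (fun M => M 0 0 = 0) using 4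
  obtain ⟨y, hy, hy0⟩ := exists_isotropic hF hstar hW
  obtain ⟨A, hA, hAy⟩ := exists_det_one_row hy
  have hM00 : (A * W * Aᴴ) 0 0 = 0 := by rw [hcongr_apply, hAy, hy0]
  have hMs : (A * W * Aᴴ)ᴴ = A * W * Aᴴ := by simp [Matrix.conjTranspose_mul, hW, Matrix.mul_assoc]
  have hMne : A * W * Aᴴ ≠ 0 := fun h0 => hW0 (by
    have hu : IsUnit A := (Matrix.isUnit_iff_isUnit_det A).2 (by rw [hA]; exact isUnit_one)
    rw [Matrix.mul_assoc] at h0
    have h1 := hu.mul_left_cancel (h0.trans (mul_zero A).symm)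
    exact (hu.star).mul_right_cancel (h1.trans (zero_mul _).symm))
  set M := A * W * Aᴴ with hM
  have hmem : ∀ (α : K) (G : Matrix (Fin (k + 1)) (Fin (k + 1)) K), α * G.det ≠ 0 →
      star (α * G.det) = α * G.det → hLow α 0 G * M * (hLow α 0 G)ᴴ ∈ O.filter fun M => M 0 0 = 0 :=
    fun α G h0 hs => Finset.mem_filter.2 ⟨mem_hOrbit.2 ⟨hLow α 0 G * A, by
      simp only [RealDetCond, Matrix.det_mul, det_hLow, hA, mul_one]; exact ⟨h0, hs⟩, by
      simp [hM, Matrix.conjTranspose_mul, Matrix.mul_assoc]⟩, by rw [congr_hLow_zero, hM00, mul_zero]⟩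
  have hII : (q ^ 2) ^ (k + 1) ≤ (q + 1) * (O.filter fun M => M 0 0 = 0).card + 1 := by
    by_cases hb : (fun i : Fin (k + 1) => M i.succ 0) = 0
    · set W' := M.submatrix Fin.succ Fin.succ
      have hW's : W'ᴴ = W' := by rw [Matrix.conjTranspose_submatrix, hMs]
      have hW'0 : W' ≠ 0 := fun h0 => hMne (Matrix.ext fun i j => by
        refine Fin.cases ?_ (fun i => ?_) i <;> refine Fin.cases ?_ (fun j => ?_) j
        · exact hM00
        · have h1 := congrFun (congrFun hMs 0) j.succ
          rw [Matrix.conjTranspose_apply, show M j.succ 0 = 0 from congrFun hb j, star_zero] at h1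
          exact h1.symm
        · exact congrFun hb i
        · exact congrFun (congrFun h0 i) j)
      refine (card_hOrbit_gl hF hstar _ W' hW's hW'0).trans ?_
      have hsub : hOrbit GLCond W' ⊆ (O.filter fun M => M 0 0 = 0).image (fun N => N.submatrix Fin.succ Fin.succ) := by
        intro N hN
        obtain ⟨G, hG, rfl⟩ := mem_hOrbit.1 hN
        refine Finset.mem_image.2 ⟨_, hmem G.det⁻¹ G ?_ ?_, congr_hLow_block _ G M⟩
        · rw [inv_mul_cancel₀ hG]; exact one_ne_zero
        · rw [inv_mul_cancel₀ hG]; exact star_one K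
      have := (Finset.card_le_card hsub).trans Finset.card_image_le
      gcongr
    · rcases Nat.eq_zero_or_pos k with rfl | hk
      · have hb0 : M (Fin.succ 0) 0 ≠ 0 := fun h => hb (funext fun i => by rw [Fin.eq_zero i]; exact h)
        have hsub : ((Finset.univ.filter fun x : K => star x = x).erase 0).image (fun t => t * M (Fin.succ 0) 0) ⊆
            (O.filter fun M => M 0 0 = 0).image (fun N => N (Fin.succ 0) 0) := by
          intro v hv
          obtain ⟨t, ht, rfl⟩ := Finset.mem_image.1 hv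
          obtain ⟨ht0, hts⟩ := Finset.mem_erase.1 ht
          refine Finset.mem_image.2 ⟨_, hmem 1 (Matrix.diagonal fun _ => t) ?_ ?_, ?_⟩
          · simpa using ht0
          · simpa using (Finset.mem_filter.1 hts).2
          · rw [congr_hLow_col]; simp [Matrix.mulVec_diagonal]
        have h := (Finset.card_le_card hsub).trans Finset.card_image_le
        rw [Finset.card_image_of_injective _ (mul_left_injective₀ hb0), card_selfAdjoint_ne_zero hF hstar] at h
        have h2 := Nat.mul_le_mul_left (q + 1) h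
        have h3 : (q ^ 2) ^ (0 + 1) = (q + 1) * (q - 1) + 1 := by
          obtain ⟨r, rfl⟩ : ∃ r, q = r + 1 := ⟨q - 1, by omega⟩
          rw [Nat.add_sub_cancel]; ring
        omega
      · obtain ⟨m, rfl⟩ : ∃ m, k = m + 1 := ⟨k - 1, by omega⟩
        have hsub : (Finset.univ.erase (0 : Fin (m + 2) → K)) ⊆
            (O.filter fun M => M 0 0 = 0).image (fun N => fun i : Fin (m + 2) => N i.succ 0) := by
          intro v hv
          obtain ⟨G, hG, hGv⟩ := exists_det_one_mulVec hb (Finset.ne_of_mem_erase hv)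
          refine Finset.mem_image.2 ⟨_, hmem 1 G ?_ ?_, funext fun i => ?_⟩
          · rw [hG, one_mul]; exact one_ne_zero
          · rw [hG, one_mul]; exact star_one K
          · rw [congr_hLow_col, hGv]; simp
        have h := (Finset.card_le_card hsub).trans Finset.card_image_le
        rw [Finset.card_erase_of_mem (Finset.mem_univ _), Finset.card_univ, Fintype.card_fun, Fintype.card_fin, hF] at h
        have h2 : (O.filter fun M => M 0 0 = 0).card ≤ (q + 1) * (O.filter fun M => M 0 0 = 0).card :=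
          Nat.le_mul_of_pos_left _ (by omega)
        have h4 : (q ^ 2) ^ (m + 1 + 1) = (q ^ 2) ^ (m + 2) := rfl
        omega
  calc (q ^ 2) ^ (k + 2) = (q + 1) * ((q - 1) * (q ^ 2) ^ (k + 1)) + (q ^ 2) ^ (k + 1) := by
        obtain ⟨r, rfl⟩ : ∃ r, q = r + 1 := ⟨q - 1, by omega⟩
        rw [Nat.add_sub_cancel, pow_succ' _ (k + 1)]; ring
    _ ≤ (q + 1) * (O.filter fun M => M 0 0 ≠ 0).card + ((q + 1) * (O.filter fun M => M 0 0 = 0).card + 1) :=
        add_le_add (Nat.mul_le_mul_left _ hI) hII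
    _ = (q + 1) * O.card + 1 := by rw [← hsplit]; ring

end Count

end CfsgLib.UnitMinDegree
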