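import Cfsg.Agent.UnitMinDegree.Frames
import Cfsg.Agent.UnitMinDegree.HermOrbit
import Cfsg.Agent.Classical.Unitary.Simple
import Cfsg.Agent.Classical.CrossChar

/-!
Lower bounds for the degrees of nonlinear complex representations of `SU_n(q)`.
-/

set_option autoImplicit false

namespace CfsgLib.UnitMinDegree

open Matrix

section Weights

variable {K : Type*} [Field K] [Fintype K] {ι : Type*} [Fintype ι] {d : ℕ}
variable (ψ : AddChar K ℂ) (R : (ι → K) → Matrix (Fin d) (Fin d) ℂ)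

/-- The common eigenspace of a weight. -/
noncomputable def weightSpace (w : ι → K) : Submodule ℂ (Fin d → ℂ) :=
  ⨅ v, LinearMap.ker ((R v).mulVecLin - (ψ (w ⬝ᵥ v)) • LinearMap.id)

omit [Fintype K] in
theorem mem_weightSpace {w : ι → K} {y : Fin d → ℂ} :
    y ∈ weightSpace ψ R w ↔ ∀ v, R v *ᵥ y = ψ (w ⬝ᵥ v) • y := by
  simp [weightSpace, sub_eq_zero]

theorem mul_card_weights_le (hψ : ∀ a : K, a ≠ 0 → ∃ x : K, ψ (a * x) ≠ 1) (S : Finset (ι → K)) (c : ℕ)
    (hS : ∀ w ∈ S, c ≤ Module.finrank ℂ (weightSpace ψ R w)) : c * S.card ≤ d := by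
  classical
  let y : S × Fin c → (Fin d → ℂ) := fun p =>
    (Module.finBasis ℂ (weightSpace ψ R p.1.1) (Fin.castLE (hS p.1.1 p.1.2) p.2) : weightSpace ψ R p.1.1)
  have hy : ∀ p v, R v *ᵥ y p = ψ (p.1.1 ⬝ᵥ v) • y p := fun p v =>
    (mem_weightSpace ψ R).1 (Subtype.coe_prop _) v
  have hli : LinearIndependent ℂ y := by
    rw [Fintype.linearIndependent_iff]
    rintro g hg ⟨w, i⟩
    have key : ∑ v : ι → K, ψ (-(w.1 ⬝ᵥ v)) • (R v *ᵥ ∑ p, g p • y p) = 0 := by
      rw [hg]; simp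
    simp only [Matrix.mulVec_sum, Matrix.mulVec_smul, hy, Finset.smul_sum, smul_smul] at key
    rw [Finset.sum_comm, Fintype.sum_prod_type, Finset.sum_eq_single w] at key
    · have h1 : ∀ (j : Fin c) (v : ι → K), ψ (-(w.1 ⬝ᵥ v)) * (g (w, j) * ψ (w.1 ⬝ᵥ v)) = g (w, j) := fun j v => by
        rw [mul_left_comm, ← ψ.map_add_eq_mul, neg_add_cancel, ψ.map_zero_eq_one, mul_one]
      simp only [h1, Finset.sum_const, Finset.card_univ, ← Nat.cast_smul_eq_nsmul ℂ, smul_smul] at key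
      have hli' : LinearIndependent ℂ (fun j : Fin c => y (w, j)) :=
        ((Module.finBasis ℂ (weightSpace ψ R w.1)).linearIndependent.map' (weightSpace ψ R w.1).subtype
          (Submodule.ker_subtype _)).comp _ (Fin.castLE_injective (hS w.1 w.2))
      have h2 := Fintype.linearIndependent_iff.1 hli' _ key i
      exact (mul_eq_zero.1 h2).resolve_left (Nat.cast_ne_zero.2 Fintype.card_ne_zero)
    · intro w' _ hw'
      refine Finset.sum_eq_zero fun j _ => ?_
      rw [← Finset.sum_smul]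
      have h1 : ∀ v : ι → K, ψ (-(w.1 ⬝ᵥ v)) * (g (w', j) * ψ (w'.1 ⬝ᵥ v)) =
          g (w', j) * ψ ((w'.1 - w.1) ⬝ᵥ v) := fun v => by
        rw [mul_left_comm, ← ψ.map_add_eq_mul, sub_dotProduct, neg_add_eq_sub]
      simp only [h1, ← Finset.mul_sum]
      rw [CfsgLib.CrossChar.sum_char_eq ψ hψ _ (sub_ne_zero.mpr fun h => hw' (Subtype.ext h)), mul_zero, zero_smul]
    · simp
  have h := hli.fintype_card_le_finrank
  rwa [Fintype.card_prod, Fintype.card_coe, Fintype.card_fin, Module.finrank_fintype_fun_eq_card,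
    Fintype.card_fin, mul_comm] at h

/-- Operators commuting up to a nondegenerate pairing need a space of dimension `√|I|`. -/
theorem card_le_sq_finrank {V : Type*} [AddCommGroup V] [Module ℂ V] [FiniteDimensional ℂ V] [Nontrivial V]
    {I : Type*} [AddCommGroup I] [Fintype I] (P : I → (V →ₗ[ℂ] V)) (hP : ∀ i, IsUnit (P i)) (χ : I → AddChar I ℂ)
    (hχ : ∀ i j, i ≠ j → χ i ≠ χ j) (hcomm : ∀ i j, P j * P i = χ i j • (P i * P j)) :
    Fintype.card I ≤ Module.finrank ℂ V ^ 2 := by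
  classical
  have hli : LinearIndependent ℂ P := by
    rw [Fintype.linearIndependent_iff]
    intro c hc i₀
    have key : ∀ j, ∑ i, (c i * χ i j) • P i = 0 := by
      intro j
      have h : P j * ∑ i, c i • P i = 0 := by rw [hc, mul_zero]
      rw [Finset.mul_sum, Finset.sum_congr rfl (fun i _ => show P j * c i • P i = (c i * χ i j) • (P i * P j) by
        rw [mul_smul_comm, hcomm, smul_smul])] at h
      have h' : (∑ i, (c i * χ i j) • P i) * P j = 0 := by
        rw [Finset.sum_mul]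
        refine Eq.trans (Finset.sum_congr rfl fun i _ => ?_) h
        rw [smul_mul_assoc]
      exact (hP j).mul_left_eq_zero.1 h'
    have h : ∑ j, χ i₀ (-j) • ∑ i, (c i * χ i j) • P i = 0 := by simp [key]
    simp only [Finset.smul_sum, smul_smul] at h
    rw [Finset.sum_comm, Finset.sum_eq_single i₀] at h
    · have h1 : ∀ j, χ i₀ (-j) * (c i₀ * χ i₀ j) = c i₀ := fun j => by
        rw [mul_left_comm, ← (χ i₀).map_add_eq_mul, neg_add_cancel, AddChar.map_zero_eq_one, mul_one]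
      simp only [h1, Finset.sum_const, Finset.card_univ, ← Nat.cast_smul_eq_nsmul ℂ, smul_smul] at h
      refine (mul_eq_zero.1 ((smul_eq_zero.1 h).resolve_right (hP i₀).ne_zero)).resolve_left ?_
      exact Nat.cast_ne_zero.2 Fintype.card_ne_zero
    · intro i _ hi
      rw [← Finset.sum_smul]
      have h1 : ∀ j, χ i₀ (-j) * (c i * χ i j) = c i * (χ i / χ i₀) j := fun j => by
        rw [AddChar.map_neg_eq_inv, AddChar.div_apply', div_eq_mul_inv]; ring
      simp only [h1, ← Finset.mul_sum]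
      rw [AddChar.sum_eq_zero_of_ne_one (div_ne_one.2 (hχ i i₀ hi)), mul_zero, zero_smul]
    · simp
  have h := hli.fintype_card_le_finrank
  rwa [Module.finrank_linearMap, ← sq] at h

end Weights

variable {K : Type*} [Field K] [Fintype K] [StarRing K] {n m q : ℕ}

/-- The parameter `V - Vᴴ` of a Siegel element. -/
def skewOf (v : Fin m × Fin m → K) : Matrix (Fin m) (Fin m) K :=
  (Matrix.of fun i j => v (i, j)) - (Matrix.of fun i j => v (i, j))ᴴ

omit [Fintype K] in
theorem skewOf_conjTranspose (v : Fin m × Fin m → K) : (skewOf v)ᴴ = -skewOf v := by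
  rw [skewOf, conjTranspose_sub, conjTranspose_conjTranspose, neg_sub]

omit [Fintype K] in
theorem skewOf_add (u v : Fin m × Fin m → K) : skewOf (u + v) = skewOf u + skewOf v := by
  ext i j; simp [skewOf]; ring

/-- `V ↦ Q V Qᴴ` on parameters. -/
def congrParam (Q : Matrix (Fin m) (Fin m) K) (v : Fin m × Fin m → K) : Fin m × Fin m → K :=
  fun p => (Q * (Matrix.of fun i j => v (i, j)) * Qᴴ) p.1 p.2

omit [Fintype K] in
theorem skewOf_congrParam (Q : Matrix (Fin m) (Fin m) K) (v : Fin m × Fin m → K) :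
    skewOf (congrParam Q v) = Q * skewOf v * Qᴴ := by
  have h : (Matrix.of fun i j => congrParam Q v (i, j)) = Q * (Matrix.of fun i j => v (i, j)) * Qᴴ := rfl
  simp only [skewOf, h, Matrix.mul_sub, Matrix.sub_mul, conjTranspose_mul, conjTranspose_conjTranspose,
    Matrix.mul_assoc]

omit [Fintype K] in
theorem dot_congrParam (A : Matrix (Fin m) (Fin m) K) (w v : Fin m × Fin m → K) :
    w ⬝ᵥ congrParam Aᵀ v = (fun p : Fin m × Fin m => (A * (Matrix.of fun i j => w (i, j)) * Aᴴ) p.1 p.2) ⬝ᵥ v := by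
  have e : ∀ (w : Fin m × Fin m → K) (M : Matrix (Fin m) (Fin m) K),
      w ⬝ᵥ (fun p => M p.1 p.2) = ((Matrix.of fun i j => w (i, j))ᵀ * M).trace := by
    intro w M
    simp only [dotProduct, Matrix.trace, Matrix.diag, Matrix.mul_apply, Fintype.sum_prod_type,
      Matrix.transpose_apply, Matrix.of_apply]
    exact Finset.sum_comm
  refine (e w (Aᵀ * (Matrix.of fun i j => v (i, j)) * Aᵀᴴ)).trans ?_
  refine Eq.trans ?_ (e (fun p : Fin m × Fin m => (A * (Matrix.of fun i j => w (i, j)) * Aᴴ) p.1 p.2)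
    (Matrix.of fun i j => v (i, j))).symm
  change _ = ((A * (Matrix.of fun i j => w (i, j)) * Aᴴ)ᵀ * (Matrix.of fun i j => v (i, j))).trace
  rw [Matrix.transpose_mul, Matrix.transpose_mul, ← Matrix.mul_assoc, Matrix.trace_mul_comm]
  have : Aᵀᴴ = Aᴴᵀ := rfl
  rw [this]
  simp only [Matrix.mul_assoc]

/-- A conjugation invariant primitive additive character. -/
theorem exists_char_star (hF : Fintype.card K = q ^ 2) (hstar : ∀ x : K, star x = x ^ q) :
    ∃ ψ : AddChar K ℂ, (∀ a : K, a ≠ 0 → ∃ x : K, ψ (a * x) ≠ 1) ∧ ∀ x, ψ (star x) = ψ x := by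
  have hL : ringChar ℂ ≠ ringChar K := by
    have hp : (ringChar K).Prime := CharP.char_is_prime K _
    rw [ringChar.eq_zero]
    exact hp.ne_zero.symm
  obtain ⟨ψ₀, hψ₀⟩ := CfsgLib.CrossChar.exists_primitive_char (F := K) ℂ hL
  obtain ⟨a, ha⟩ := hψ₀ 1 one_ne_zero
  rw [one_mul] at ha
  refine ⟨{ toFun := fun y => ψ₀ (a * (y + star y))
            map_zero_eq_one' := by simp
            map_add_eq_mul' := fun x y => by
              rw [← ψ₀.map_add_eq_mul]; congr 1; rw [star_add]; ring }, fun c hc => ?_, fun x => ?_⟩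
  · obtain ⟨y, hy⟩ := CfsgLib.Unitary.exists_trace_eq hF (a := (1 : K)) (one_pow q)
    refine ⟨c⁻¹ * y, ?_⟩
    change ψ₀ (a * (c * (c⁻¹ * y) + star (c * (c⁻¹ * y)))) ≠ 1
    rw [← mul_assoc, mul_inv_cancel₀ hc, one_mul, hstar, hy, mul_one]
    exact ha
  · change ψ₀ (a * (star x + star (star x))) = ψ₀ (a * (x + star x))
    rw [star_star, add_comm]

set_option maxHeartbeats 1000000 in
/-- Common part: the weights of the Siegel radical fill an orbit, each weight space of dimension `c`. -/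
theorem degree_ge (hF : Fintype.card K = q ^ 2) (hstar : ∀ x : K, star x = x ^ q) (hn : 3 ≤ n)
    (h32 : ¬ (n = 3 ∧ q = 2)) (hm : 1 ≤ m) {E G : Matrix (Fin n) (Fin m) K} (h : HFrame E G)
    (P : Matrix (Fin m) (Fin m) K → Prop) (hP : ∀ Q, P Q → Q.det ≠ 0)
    (hlift : ∀ Q, P Q → ∃ g : ↥(Cfsg.SU n K q), ∀ S,
      siegelMat E S * ((g : Matrix.SpecialLinearGroup (Fin n) K) : Matrix (Fin n) (Fin n) K) =
        ((g : Matrix.SpecialLinearGroup (Fin n) K) : Matrix (Fin n) (Fin n) K) * siegelMat E (Qᵀ * S * Qᵀᴴ))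
    {k : ℕ} (ρ : Representation ℂ ↥(Cfsg.SU n K q) (Fin k → ℂ)) (hρ : ρ.IsIrreducible) (hk : 2 ≤ k)
    (c : ℕ)
    (hc : ∀ (Φ : ↥(Cfsg.SU n K q) →* Matrix (Fin k) (Fin k) ℂ) (sU : (Fin m × Fin m → K) → ↥(Cfsg.SU n K q))
      (ψ : AddChar K ℂ) (w : Fin m × Fin m → K),
      (∀ v, ((sU v : Matrix.SpecialLinearGroup (Fin n) K) : Matrix (Fin n) (Fin n) K) = siegelMat E (skewOf v)) →
      (∀ a : K, a ≠ 0 → ∃ x : K, ψ (a * x) ≠ 1) → (∀ i j, w (i, j) = -star (w (j, i))) → w ≠ 0 →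
      (∃ y, CfsgLib.CrossChar.IsWeightVec ψ (fun v => Φ (sU v)) w y) →
      c ≤ Module.finrank ℂ (weightSpace ψ (fun v => Φ (sU v)) w))
    (N : ℕ) (hN : ∀ H : Matrix (Fin m) (Fin m) K, Hᴴ = H → H ≠ 0 → N ≤ (hOrbit P H).card) :
    c * N ≤ k := by
  classical
  have hex : ∀ v : Fin m × Fin m → K, ∃ g : ↥(Cfsg.SU n K q),
      ((g : Matrix.SpecialLinearGroup (Fin n) K) : Matrix (Fin n) (Fin n) K) = siegelMat E (skewOf v) := fun v =>
    exists_SU_of_unitary hF hstar _ (siegelMat_unitary h _ (skewOf_conjTranspose v)) (siegelMat_det h _)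
  choose sU hsU using hex
  have hinj : ∀ g g' : ↥(Cfsg.SU n K q), ((g : Matrix.SpecialLinearGroup (Fin n) K) : Matrix (Fin n) (Fin n) K) =
      ((g' : Matrix.SpecialLinearGroup (Fin n) K) : Matrix (Fin n) (Fin n) K) → g = g' := fun g g' e =>
    Subtype.ext (Subtype.ext e)
  have hmul : ∀ u v, sU (u + v) = sU u * sU v := fun u v => hinj _ _ (by
    rw [Subgroup.coe_mul, Matrix.SpecialLinearGroup.coe_mul, hsU, hsU, hsU, skewOf_add, siegelMat_add h])
  have hzero : sU 0 = 1 := by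
    have := hmul 0 0
    rwa [add_zero, left_eq_mul] at this
  let ρ' : ↥(Cfsg.SU n K q) →* (Fin k → ℂ) →ₗ[ℂ] (Fin k → ℂ) := ρ
  have hker : ρ'.ker ≤ Subgroup.center ↥(Cfsg.SU n K q) := by
    refine (CfsgLib.Unitary.le_center_or_eq_top hF hn h32 _).resolve_right fun htop => ?_
    have htriv : ∀ g, ρ g = 1 := fun g => MonoidHom.mem_ker.1 (htop ▸ Subgroup.mem_top g : g ∈ ρ'.ker)
    let e : Fin k → ℂ := Pi.single ⟨0, by omega⟩ 1
    let S : Subrepresentation ρ :=
      ⟨Submodule.span ℂ {e}, fun g v hv => by simpa [htriv g] using hv⟩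
    rcases @IsSimpleOrder.eq_bot_or_eq_top _ _ _ hρ S with h' | h'
    · have h'' : Submodule.span ℂ {e} = ⊥ := congrArg Subrepresentation.toSubmodule h'
      simp [e] at h''
    · have h'' : Submodule.span ℂ {e} = ⊤ := congrArg Subrepresentation.toSubmodule h'
      have h1 := finrank_span_le_card (R := ℂ) ({e} : Set (Fin k → ℂ))
      rw [h''] at h1
      simp at h1
      omega
  obtain ⟨ψ, hψ, hψs⟩ := exists_char_star hF hstar
  have hcard : (Fintype.card K : ℂ) ≠ 0 := Nat.cast_ne_zero.2 Fintype.card_ne_zero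
  let Φ : ↥(Cfsg.SU n K q) →* Matrix (Fin k) (Fin k) ℂ :=
    (LinearMap.toMatrixAlgEquiv' : ((Fin k → ℂ) →ₗ[ℂ] (Fin k → ℂ)) ≃ₐ[ℂ] _).toAlgHom.toMonoidHom.comp ρ'
  let R : (Fin m × Fin m → K) → Matrix (Fin k) (Fin k) ℂ := fun v => Φ (sU v)
  have h0 : R 0 = 1 := by simp [R, hzero]
  have hadd : ∀ u v, R (u + v) = R u * R v := fun u v => by simp [R, hmul]
  obtain ⟨γ, hγ⟩ : ∃ γ : K, star γ ≠ γ := by
    obtain ⟨t, ht, ht2⟩ := CfsgLib.Unitary.exists_norm_one_ne_inv hF
    refine ⟨t, fun e => ht2 ?_⟩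
    rw [hstar] at e
    rw [sq]
    nth_rewrite 1 [← e]
    rw [← pow_succ, ht]
  let i0 : Fin m := ⟨0, hm⟩
  let v₀ : Fin m × Fin m → K := Pi.single (i0, i0) γ
  have hv₀ : R v₀ ≠ 1 := by
    intro hR
    have hk' : sU v₀ ∈ ρ'.ker := by
      refine MonoidHom.mem_ker.2 ((LinearMap.toMatrixAlgEquiv' :
        ((Fin k → ℂ) →ₗ[ℂ] (Fin k → ℂ)) ≃ₐ[ℂ] _).injective ?_)
      rw [map_one]; exact hR
    obtain ⟨g, hg⟩ := exists_SU_of_unitary hF hstar _
      (siegelMat_unitary h.swap _ (skewOf_conjTranspose v₀)) (siegelMat_det h.swap _)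
    have hcm := congrArg (fun x : ↥(Cfsg.SU n K q) => ((x : Matrix.SpecialLinearGroup (Fin n) K) : Matrix (Fin n) (Fin n) K))
      (Subgroup.mem_center_iff.1 (hker hk') g)
    simp only [Subgroup.coe_mul, Matrix.SpecialLinearGroup.coe_mul, hg, hsU] at hcm
    have hS2 : skewOf v₀ * skewOf v₀ = 0 := by
      have h4 := congrArg (fun M => Eᴴ * M * G) hcm
      simp only [siegelMat, Matrix.mul_add, Matrix.add_mul, Matrix.mul_one, Matrix.one_mul, Matrix.mul_assoc,
        h.ee, h.ee', h.eg, h.eg', h.ge, h.ge', h.gg, h.gg', Matrix.mul_zero, add_zero, zero_add] at h4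
      simpa using h4
    have := congrFun (congrFun hS2 i0) i0
    rw [Matrix.mul_apply, Finset.sum_eq_single i0] at this
    · simp [skewOf, v₀, sub_eq_zero, eq_comm (a := γ)] at this
      exact hγ this
    · intro j _ hj
      simp [skewOf, v₀, hj]
    · simp
  obtain ⟨w, y, hy, hwv⟩ := CfsgLib.CrossChar.exists_isWeightVec ψ R hψ hcard h0 hadd v₀ hv₀
  set W : Matrix (Fin m) (Fin m) K := Matrix.of fun i j => w (i, j) with hWdef
  have hskew : ∀ (w : Fin m × Fin m → K), (∃ y, CfsgLib.CrossChar.IsWeightVec ψ R w y) →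
      ∀ i j, w (i, j) = -star (w (j, i)) := by
    rintro w ⟨y, hy⟩ i j
    by_contra hne
    obtain ⟨x, hx⟩ := hψ (w (i, j) + star (w (j, i))) (fun e => hne (eq_neg_of_add_eq_zero_left e))
    refine hx ?_
    have h1 := hy.2 (Pi.single (i, j) x)
    have h3 : R (Pi.single (j, i) (-star x)) = R (Pi.single (i, j) x) := by
      have : skewOf (Pi.single (j, i) (-star x)) = skewOf (Pi.single (i, j) x : Fin m × Fin m → K) := by
        ext a b
        simp only [skewOf, Matrix.sub_apply, conjTranspose_apply, Matrix.of_apply, Pi.single_apply, Prod.mk.injEq,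
          apply_ite (star : K → K), star_zero, star_neg, star_star]
        split_ifs <;> first | ring1 | (exfalso; tauto)
      simp only [R]
      rw [hinj (sU (Pi.single (j, i) (-star x))) (sU (Pi.single (i, j) x)) (by rw [hsU, hsU, this])]
    have h4 := hy.2 (Pi.single (j, i) (-star x))
    rw [h3, h1, dotProduct_single, dotProduct_single] at h4
    have h5 := smul_left_injective ℂ hy.1 h4
    rw [add_mul, ψ.map_add_eq_mul, h5, ← hψs (star (w (j, i)) * x), star_mul', star_star, ← ψ.map_add_eq_mul]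
    have : w (j, i) * -star x + w (j, i) * star x = 0 := by ring
    rw [this, ψ.map_zero_eq_one]
  have hw0 : w ≠ 0 := by rintro rfl; simp at hwv
  have hW : Wᴴ = -W := by
    ext i j
    rw [Matrix.conjTranspose_apply, Matrix.neg_apply]
    show star (w (j, i)) = -w (i, j)
    rw [hskew w ⟨y, hy⟩ i j, neg_neg]
  obtain ⟨δ, hδ0, hδ⟩ : ∃ δ : K, δ ≠ 0 ∧ star δ = -δ :=
    ⟨γ - star γ, sub_ne_zero.2 (Ne.symm hγ), by rw [star_sub, star_star, neg_sub]⟩
  have hH : (δ • W)ᴴ = δ • W := by rw [conjTranspose_smul, hW, hδ, smul_neg, neg_smul, neg_neg]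
  have hH0 : δ • W ≠ 0 := fun e => hw0 (funext fun p => by
    simpa [hWdef] using congrFun (congrFun ((smul_eq_zero.1 e).resolve_left hδ0) p.1) p.2)
  let back : Matrix (Fin m) (Fin m) K → (Fin m × Fin m → K) := fun M p => δ⁻¹ * M p.1 p.2
  have hback : Function.Injective back := fun M M' e => Matrix.ext fun i j =>
    mul_left_cancel₀ (inv_ne_zero hδ0) (congrFun e (i, j))
  have hall : ∀ w' ∈ (hOrbit P (δ • W)).image back, c ≤ Module.finrank ℂ (weightSpace ψ R w') := by
    intro w' hw'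
    obtain ⟨M, hM, rfl⟩ := Finset.mem_image.1 hw'
    obtain ⟨A, hA, rfl⟩ := mem_hOrbit.1 hM
    obtain ⟨g, hg⟩ := hlift A hA
    have hw'eq : back (A * (δ • W) * Aᴴ) = fun p : Fin m × Fin m => (A * W * Aᴴ) p.1 p.2 := by
      funext p
      simp only [back, Matrix.mul_smul, Matrix.smul_mul, Matrix.smul_apply, smul_eq_mul]
      rw [← mul_assoc, inv_mul_cancel₀ hδ0, one_mul]
    rw [hw'eq]
    have hwt : ∃ y', CfsgLib.CrossChar.IsWeightVec ψ R (fun p : Fin m × Fin m => (A * W * Aᴴ) p.1 p.2) y' := by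
      refine ⟨_, CfsgLib.CrossChar.transport_isWeightVec ψ R (Φ g) (Φ g⁻¹) ?_
        (congrParam Aᵀ) (fun v => ?_) (fun v => ?_) hy⟩
      · rw [← map_mul, inv_mul_cancel, map_one]
      · simp only [R, ← map_mul]
        congr 1
        refine hinj _ _ ?_
        rw [Subgroup.coe_mul, Matrix.SpecialLinearGroup.coe_mul, Subgroup.coe_mul, Matrix.SpecialLinearGroup.coe_mul,
          hsU, hsU, hg, skewOf_congrParam]
      · exact dot_congrParam A w v
    refine hc Φ sU ψ _ hsU hψ (hskew _ hwt) ?_ hwt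
    intro e
    refine hw0 (funext fun p => ?_)
    have hu : IsUnit A := (Matrix.isUnit_iff_isUnit_det A).2 (hP A hA).isUnit
    have e' : A * W * Aᴴ = A * 0 * star A := by
      rw [Matrix.mul_zero, Matrix.zero_mul]
      exact Matrix.ext fun i j => congrFun e (i, j)
    exact congrFun (congrFun (hu.mul_left_cancel (hu.star.mul_right_cancel e')) p.1) p.2
  have hres := mul_card_weights_le ψ R hψ _ c hall
  rw [Finset.card_image_of_injective _ hback] at hres
  exact (Nat.mul_le_mul_left c (hN _ hH hH0)).trans hres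

end CfsgLib.UnitMinDegree
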